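import Cfsg.Agent.Lib.Char.Integral

/-!
Permutation characters.
-/

set_option autoImplicit false

open scoped ComplexConjugate

namespace Cfsg.Agent.Char

variable {G : Type*} [Group G]

/-- The permutation character of an action. -/
noncomputable def permChar (G : Type*) [Group G] (X : Type*) [MulAction G X] : G → ℂ :=
  fun g => (Nat.card (MulAction.fixedBy X g) : ℂ)

theorem isChar_permChar (X : Type*) [MulAction G X] [Finite X] : IsCharacter G (permChar G X) :=
  isChar_fixedBy X

theorem permChar_one (X : Type*) [MulAction G X] : permChar G X 1 = Nat.card X := by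
  simp [permChar]

theorem permChar_prod (X Y : Type*) [MulAction G X] [MulAction G Y] (g : G) :
    permChar G (X × Y) g = permChar G X g * permChar G Y g := by
  simp only [permChar]
  rw [← Nat.cast_mul, ← Nat.card_prod, Nat.cast_inj]
  refine Nat.card_congr ((Equiv.subtypeEquivRight fun x => ?_).trans Equiv.subtypeProdEquivProd)
  simp [MulAction.mem_fixedBy, Prod.ext_iff]

/-- The orbit counting lemma. -/
theorem inner_permChar_one [Fintype G] (X : Type*) [MulAction G X] [Finite X] :
    classInner (permChar G X) (fun _ => 1) = Nat.card (MulAction.orbitRel.Quotient G X) := by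
  classical
  have := Fintype.ofFinite X
  have := Fintype.ofFinite (MulAction.orbitRel.Quotient G X)
  have h := MulAction.sum_card_fixedBy_eq_card_orbits_mul_card_group G X
  simp only [← Nat.card_eq_fintype_card] at h
  simp only [classInner, permChar, map_one, mul_one]
  rw [inv_mul_eq_iff_eq_mul₀ (card_ne_zero_complex G), mul_comm]
  exact_mod_cast h

theorem inner_permChar_permChar [Fintype G] (X Y : Type*) [MulAction G X] [Finite X]
    [MulAction G Y] [Finite Y] :
    classInner (permChar G X) (permChar G Y) =
      Nat.card (MulAction.orbitRel.Quotient G (X × Y)) := by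
  rw [← inner_permChar_one]
  simp only [classInner, permChar_prod, map_one, mul_one]
  simp [permChar]

theorem card_orbits_of_isPretransitive (X : Type*) [MulAction G X] [Nonempty X]
    [MulAction.IsPretransitive G X] : Nat.card (MulAction.orbitRel.Quotient G X) = 1 := by
  rw [Nat.card_eq_one_iff_unique]
  exact ⟨(MulAction.pretransitive_iff_subsingleton_quotient G X).1 inferInstance,
    ⟨Quotient.mk'' (Classical.arbitrary X)⟩⟩

theorem card_orbits_prod_eq_two_iff (X : Type*) [MulAction G X] [Nontrivial X]
    [MulAction.IsPretransitive G X] :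
    Nat.card (MulAction.orbitRel.Quotient G (X × X)) = 2 ↔
      MulAction.IsMultiplyPretransitive G X 2 := by
  obtain ⟨x, y, hxy⟩ := exists_pair_ne X
  rw [MulAction.is_two_pretransitive_iff,
    Nat.card_eq_two_iff' (Quotient.mk'' (x, x) : MulAction.orbitRel.Quotient G (X × X))]
  have h1 : ∀ a b : X, (Quotient.mk'' (a, b) : MulAction.orbitRel.Quotient G (X × X)) =
      Quotient.mk'' (x, x) ↔ a = b := by
    intro a b
    rw [Quotient.eq'', MulAction.orbitRel_apply, MulAction.mem_orbit_iff]
    constructor
    · rintro ⟨g, hg⟩
      simp only [Prod.smul_mk, Prod.mk.injEq] at hg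
      exact hg.1.symm.trans hg.2
    · rintro rfl
      obtain ⟨g, hg⟩ := MulAction.exists_smul_eq G x a
      exact ⟨g, by simp [hg]⟩
  constructor
  · rintro ⟨q, -, hq⟩ a b c d hab hcd
    have h2 := (hq (Quotient.mk'' (c, d)) (fun h => hcd ((h1 c d).1 h))).trans
      (hq (Quotient.mk'' (a, b)) (fun h => hab ((h1 a b).1 h))).symm
    rw [Quotient.eq'', MulAction.orbitRel_apply, MulAction.mem_orbit_iff] at h2
    obtain ⟨g, hg⟩ := h2
    exact ⟨g, by simpa using hg⟩
  · intro h
    refine ⟨Quotient.mk'' (x, y), fun h2 => hxy ((h1 x y).1 h2), fun q hq => ?_⟩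
    induction q using Quotient.inductionOn' with
    | h z =>
      obtain ⟨a, b⟩ := z
      obtain ⟨g, hg⟩ := h hxy (fun h3 : a = b => hq ((h1 a b).2 h3))
      rw [Quotient.eq'', MulAction.orbitRel_apply, MulAction.mem_orbit_iff]
      exact ⟨g, by simpa using hg⟩

theorem isIrr_permChar_sub_one_iff [Finite G] (X : Type*) [MulAction G X] [Finite X]
    [Nontrivial X] [MulAction.IsPretransitive G X] :
    IsIrrCharacter G (permChar G X - fun _ => 1) ↔ MulAction.IsMultiplyPretransitive G X 2 := by
  have := Fintype.ofFinite G
  have h1 : classInner (permChar G X - fun _ => 1) (permChar G X - fun _ => 1) =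
      (Nat.card (MulAction.orbitRel.Quotient G (X × X)) : ℂ) - 1 := by
    rw [inner_sub_left, inner_sub_right, inner_sub_right, ← conj_inner (permChar G X) (fun _ => 1),
      inner_permChar_permChar, inner_permChar_one, card_orbits_of_isPretransitive X, inner_one_one]
    simp
  rw [← card_orbits_prod_eq_two_iff]
  constructor
  · intro h
    rw [inner_self_of_isIrr h, eq_sub_iff_add_eq, one_add_one_eq_two] at h1
    exact_mod_cast h1.symm
  · intro h
    refine isIrr_of_isGen_of_inner_self (isGen_sub (isGen_of_isChar (isChar_permChar X)) isGen_one)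
      (by rw [h1, h]; norm_num) ?_
    have h2 : (1 : ℝ) ≤ Nat.card X := by exact_mod_cast Nat.card_pos
    simpa [permChar_one] using h2

end Cfsg.Agent.Char
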